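import Mathlib
import Cfsg.Agent.Lib.Blocks.TwoPrimes
import Cfsg.Agent.Lib.DefectOne.CharDesign
import Cfsg.Agent.Lib.Char.LinearChars
import Cfsg.Agent.Lib.Char.DetExt
import Cfsg.Agent.Lib.Char.Ortho

/-!
# Character values in a simple group: basic tools
-/

set_option autoImplicit false
set_option linter.unusedSectionVars false
set_option linter.style.haveILetI false

namespace Cfsg.Agent.Lib.ThreePQ

open Cfsg Subgroup Module
open Cfsg.Agent.Lib.Char.Values

universe u

section General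

variable {G : Type u} [Group G] [Finite G]

/-- A rational algebraic integer is an integer. -/
lemma dvd_of_isIntegral_inv_mul {r : ℕ} (hr : r ≠ 0) {z : ℤ}
    (h : IsIntegral ℤ ((r : ℂ)⁻¹ * (z : ℂ))) : (r : ℤ) ∣ z := by
  have h1 : ((r : ℂ)⁻¹ * (z : ℂ)) = (algebraMap ℚ ℂ) ((z : ℚ) / r) := by
    simp [div_eq_mul_inv, mul_comm]
  rw [h1, isIntegral_algebraMap_iff (algebraMap ℚ ℂ).injective] at h
  obtain ⟨y, hy⟩ := IsIntegrallyClosed.isIntegral_iff.1 h
  refine ⟨y, ?_⟩
  have hr' : (r : ℚ) ≠ 0 := by exact_mod_cast hr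
  have h2 : ((y : ℤ) : ℚ) = (z : ℚ) / r := by simpa using hy
  have h3 : (z : ℚ) = r * y := by
    rw [h2]
    field_simp
  exact_mod_cast h3

/-- Averaging over a commuting subgroup of prime order gives an algebraic integer. -/
theorem avg_isIntegral {χ : G → ℂ} (hχ : IsCharacter G χ) {r : ℕ} [hr : Fact r.Prime] {x c : G}
    (hx : orderOf x = r) (hc : c * x = x * c) :
    IsIntegral ℤ ((r : ℂ)⁻¹ * ∑ i : ZMod r, χ (c * Cfsg.Agent.Lib.DefectOne.XX x i)) := by
  classical
  let Γ : Subgroup G := centralizer ({x} : Set G)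
  have hxΓ : x ∈ Γ := by
    rw [Subgroup.mem_centralizer_singleton_iff]
  have hcΓ : c ∈ Γ := by
    rw [Subgroup.mem_centralizer_singleton_iff]
    exact hc
  let x' : Γ := ⟨x, hxΓ⟩
  have hord : orderOf x' = r := by
    rw [← Subgroup.orderOf_coe]
    exact hx
  have hnorm : ∀ g : Γ, g * x' * g⁻¹ ∈ zpowers x' := by
    intro g
    have h1 : g * x' = x' * g := by
      apply Subtype.ext
      exact (Subgroup.mem_centralizer_singleton_iff.1 g.2)
    rw [h1, mul_inv_cancel_right]
    exact mem_zpowers x'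
  have hres := Cfsg.Agent.Lib.Char.Basic.isCharacter_restrict hχ Γ
  have h2 := Cfsg.Agent.Lib.DefectOne.isCharacter_avg hord hnorm hres
  have h3 := IsCharacter.isIntegral h2 ⟨c, hcΓ⟩
  simpa [x', Cfsg.Agent.Lib.DefectOne.XX] using h3

/-- The average of a character over a subgroup is a natural number. -/
theorem exists_nat_sum_subgroup {χ : G → ℂ} (hχ : IsCharacter G χ) (H : Subgroup G) [Fintype H] :
    ∃ m : ℕ, ∑ h : H, χ h = (Nat.card H : ℂ) * m := by
  classical
  have hres := Cfsg.Agent.Lib.Char.Basic.isCharacter_restrict hχ H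
  obtain ⟨n, hn⟩ := Cfsg.Agent.Lib.Char.Ortho.exists_nat_classInner hres
    (⟨fun _ => 1, Cfsg.Agent.Lib.Char.Burnside2.isIrrCharacter_one⟩ : IrrCharacter H)
  refine ⟨n, ?_⟩
  unfold classInner at hn
  simp only [map_one, mul_one] at hn
  rw [← hn]
  have hc : (Nat.card H : ℂ) ≠ 0 := Nat.cast_ne_zero.mpr Nat.card_pos.ne'
  field_simp

/-- The identity `6 det A = t₁³ - 3 t₁ t₂ + 2 t₃` for `3 × 3` matrices. -/
lemma det_fin_three_trace (A : Matrix (Fin 3) (Fin 3) ℂ) :
    6 * A.det = A.trace ^ 3 - 3 * A.trace * (A * A).trace + 2 * (A * A * A).trace := by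
  simp only [Matrix.det_fin_three, Matrix.trace_fin_three, Matrix.mul_apply, Fin.sum_univ_three]
  ring

end General

section Simple

variable {G : Type u} [Group G] [Finite G] [IsSimpleGroup G]

open Cfsg.Agent.Lib.Blocks.PrimeDegs Cfsg.Agent.Lib.Blocks.TwoPrimes

/-- Non-trivial irreducible characters of a simple group are faithful. -/
theorem irr_faithful (χ : IrrCharacter G) (hne : (χ : G → ℂ) ≠ fun _ => 1) {g : G}
    (h : (χ : G → ℂ) g = (χ : G → ℂ) 1) : g = 1 := by
  obtain ⟨χ, n, ρ, hirr, rfl⟩ := χ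
  haveI := hirr
  have hinj := faithful_of_ne ρ hne
  have h' : ρ.character g = ρ.character 1 := h
  have h1 : ρ.character g = (finrank ℂ (Fin n → ℂ) : ℂ) := by
    rw [h']
    simp [Representation.char_one]
  have h2 := (character_eq_finrank_iff ρ g).1 h1
  apply hinj
  rw [h2, map_one]
  rfl

theorem irr_faithful_abs (hna : ∃ a b : G, a * b ≠ b * a) (χ : IrrCharacter G)
    (hne : (χ : G → ℂ) ≠ fun _ => 1) {g : G} (h : ‖(χ : G → ℂ) g‖ = ‖(χ : G → ℂ) 1‖) : g = 1 := by
  obtain ⟨χ, n, ρ, hirr, rfl⟩ := χ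
  haveI := hirr
  have hinj := faithful_of_ne ρ hne
  have h' : ‖ρ.character g‖ = ‖ρ.character 1‖ := h
  have h1 : ‖ρ.character g‖ = (finrank ℂ (Fin n → ℂ) : ℝ) := by
    rw [h']
    simp [Representation.char_one]
  obtain ⟨ω, hω⟩ := (norm_character_eq_iff ρ g).1 h1
  have hc : g ∈ center G := by
    rw [Subgroup.mem_center_iff]
    intro y
    apply hinj
    rw [map_mul, map_mul, hω]
    ext v
    simp
  rw [center_eq_bot hna, Subgroup.mem_bot] at hc
  exact hc

/-- Non-trivial irreducible characters of a non-abelian simple group have degree at least `2`. -/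
theorem two_le_degree (hna : ∃ a b : G, a * b ≠ b * a) (χ : IrrCharacter G) (hne : (χ : G → ℂ) ≠ fun _ => 1) :
    2 ≤ charDegree (χ : G → ℂ) := by
  obtain ⟨χ, n, ρ, hirr, rfl⟩ := χ
  haveI := hirr
  have hd : charDegree ρ.character = n :=
    IsCharacter.charDegree_eq ⟨n, ρ, rfl⟩ (by simp [Representation.char_one])
  show 2 ≤ charDegree ρ.character
  rw [hd]
  have hn0 : n ≠ 0 := by
    rintro rfl
    obtain ⟨d, hd0, hd1⟩ := Cfsg.Agent.Lib.Char.Ortho.irr_degree_pos (χ := ρ.character) ⟨0, ρ, hirr, rfl⟩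
    have h2 : ρ.character 1 = 0 := by
      simp [Representation.char_one]
    rw [h2] at hd1
    have h3 : d = 0 := by exact_mod_cast hd1.symm
    omega
  have hn1 : n ≠ 1 := by
    rintro rfl
    exact ne_one_of_ne hna ρ hne
  omega

/-- Burnside's vanishing theorem in a simple group. -/
theorem irr_vanish (hna : ∃ a b : G, a * b ≠ b * a) (χ : IrrCharacter G) (hne : (χ : G → ℂ) ≠ fun _ => 1) {z : G}
    (hz : z ≠ 1) (hcop : Nat.Coprime (charDegree (χ : G → ℂ)) (centralizer ({z} : Set G)).index) :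
    (χ : G → ℂ) z = 0 := by
  obtain ⟨χ, n, ρ, hirr, rfl⟩ := χ
  haveI := hirr
  have hd : charDegree ρ.character = n :=
    IsCharacter.charDegree_eq ⟨n, ρ, rfl⟩ (by simp [Representation.char_one])
  have hcop' : Nat.Coprime n (centralizer ({z} : Set G)).index := by
    rw [← hd]
    exact hcop
  exact character_eq_zero hna ρ hne hz hcop'

/-- The determinant of a representation of a non-abelian simple group is trivial. -/
theorem det_eq_one (hna : ∃ a b : G, a * b ≠ b * a) {n : ℕ} (ρ : Representation ℂ G (Fin n → ℂ)) (g : G) :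
    LinearMap.det (ρ g) = 1 := by
  obtain ⟨φ, hφ⟩ := Cfsg.Agent.Lib.Char.DetExt.exists_hom_detChar (K := G) (⟨n, ρ, rfl⟩ : IsCharacter G ρ.character)
  have h1 := hφ g
  rw [Cfsg.Agent.Lib.Char.DetExt.detChar_character] at h1
  rw [h1]
  have hker : φ.ker = ⊥ ∨ φ.ker = ⊤ := (inferInstance : IsSimpleGroup G).eq_bot_or_eq_top_of_normal _
    (MonoidHom.normal_ker φ)
  rcases hker with hker | hker
  · exfalso
    obtain ⟨a, b, hab⟩ := hna
    apply hab
    apply (MonoidHom.ker_eq_bot_iff φ).1 hker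
    rw [map_mul, map_mul, mul_comm]
  · have : g ∈ φ.ker := by
      rw [hker]
      trivial
    rw [MonoidHom.mem_ker.1 this]
    simp

/-- Involutions: `χ(t) ≡ χ(1)` modulo `4`. -/
theorem inv_mod_four (hna : ∃ a b : G, a * b ≠ b * a) {χ : G → ℂ} (hχ : IsCharacter G χ) {t : G} (ht : t * t = 1) :
    ∃ m : ℕ, χ t = χ 1 - 4 * m ∧ 2 * m ≤ charDegree χ := by
  classical
  obtain ⟨n, ρ, rfl⟩ := hχ
  have hA : (ρ t) ^ 2 = 1 := by
    rw [pow_two, ← map_mul, ht, map_one]
  obtain ⟨b, μ, h1, h2, _, h4⟩ := exists_eigenvalues (ρ t) (by norm_num : 0 < 2) hA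
  have hμ : ∀ i, μ i = 1 ∨ μ i = -1 := fun i => mul_self_eq_one_iff.1 (by rw [← pow_two]; exact h2 i)
  have hd : charDegree ρ.character = n :=
    IsCharacter.charDegree_eq ⟨n, ρ, rfl⟩ (by simp [Representation.char_one])
  have hdet : LinearMap.det (ρ t) = ∏ i, μ i := by
    rw [← LinearMap.det_toMatrix b]
    have h5 : LinearMap.toMatrix b b (ρ t) = Matrix.diagonal μ := by
      ext i j
      rw [LinearMap.toMatrix_apply, h1, map_smul, b.repr_self, Finsupp.smul_single, Matrix.diagonal_apply,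
        Finsupp.single_apply]
      by_cases hij : j = i
      · subst hij
        simp
      · simp [hij, Ne.symm hij]
    rw [h5, Matrix.det_diagonal]
  set S : Finset (Fin (finrank ℂ (Fin n → ℂ))) := Finset.univ.filter (fun i => μ i = -1) with hS
  have hμ' : ∀ i, μ i = if i ∈ S then -1 else 1 := by
    intro i
    by_cases hi : μ i = -1
    · simp [hS, hi]
    · rcases hμ i with h5 | h5
      · simp [hS, h5]
      · exact absurd h5 hi
  have hprod : ∏ i, μ i = (-1 : ℂ) ^ S.card := by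
    rw [Finset.prod_congr rfl (fun i _ => hμ' i), Finset.prod_ite_mem, Finset.univ_inter, Finset.prod_const]
  have hsum : ∑ i, μ i = (n : ℂ) - 2 * S.card := by
    rw [Finset.sum_congr rfl (fun i _ => hμ' i)]
    have h5 : ∀ i, (if i ∈ S then (-1 : ℂ) else 1) = 1 - 2 * (if i ∈ S then 1 else 0) := by
      intro i
      by_cases hi : i ∈ S <;> simp [hi]
      norm_num
    rw [Finset.sum_congr rfl (fun i _ => h5 i), Finset.sum_sub_distrib, ← Finset.mul_sum, Finset.sum_ite_mem,
      Finset.univ_inter, Finset.sum_const, Finset.sum_const, Finset.card_univ, Fintype.card_fin,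
      nsmul_eq_mul, nsmul_eq_mul, mul_one, mul_one]
    have hfr : ((finrank ℂ (Fin n → ℂ) : ℕ) : ℂ) = n := by
      exact_mod_cast (finrank_fin_fun ℂ (n := n))
    rw [hfr]
  have hev : Even S.card := by
    have h5 := det_eq_one hna ρ t
    rw [hdet, hprod] at h5
    by_contra hodd
    rw [Nat.not_even_iff_odd] at hodd
    rw [hodd.neg_one_pow] at h5
    norm_num at h5
  obtain ⟨m, hm⟩ := hev
  refine ⟨m, ?_, ?_⟩
  · show LinearMap.trace ℂ _ (ρ t) = _
    rw [h4, hsum, hm]
    simp [Representation.char_one]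
    ring
  · rw [hd]
    have h5 : S.card ≤ n := by
      have h6 := Finset.card_le_univ S
      rw [Fintype.card_fin] at h6
      exact h6.trans (finrank_fin_fun ℂ (n := n)).le
    omega

end Simple

end Cfsg.Agent.Lib.ThreePQ
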