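import Mathlib
import Cfsg.Agent.Lib.ThreePQ.Basic
import Cfsg.Agent.Lib.Blocks.ClassIndep
import Cfsg.Agent.Lib.Blocks.SecondMain
import Cfsg.Agent.Lib.DefectOne.PTable

/-!
# The principal `3`-block when `3 ∥ |G|`
-/

set_option autoImplicit false
set_option linter.unusedSectionVars false
set_option linter.style.haveILetI false

namespace Cfsg.Agent.Lib.ThreePQ

open Cfsg Subgroup Module Finset
open Cfsg.Agent.Lib.Char.Values Cfsg.Agent.Lib.DefectOne Cfsg.Agent.Lib.Blocks.Principal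

universe u

variable {G : Type u} [Group G] [Finite G] [IsSimpleGroup G]

/-- Burnside's transfer theorem: in a non-abelian simple group the normalizer of a non-trivial Sylow
subgroup does not centralize it. -/
theorem not_normalizer_le (hna : ∃ a b : G, a * b ≠ b * a) {r : ℕ} [hr : Fact r.Prime] (S : Sylow r G)
    (hS : Nat.card S ≠ 1) : ¬ normalizer ((S : Subgroup G) : Set G) ≤ centralizer ((S : Subgroup G) : Set G) := by
  intro hle
  have hc := MonoidHom.ker_transferSylow_isComplement' S hle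
  have hn : (MonoidHom.transferSylow S hle).ker.Normal := MonoidHom.normal_ker _
  have hcard := hc.card_mul_card
  rcases (inferInstance : IsSimpleGroup G).eq_bot_or_eq_top_of_normal _ hn with h | h
  · rw [h, Subgroup.card_bot, one_mul] at hcard
    -- `G` is a non-abelian group of prime-power order
    obtain ⟨a, b, hab⟩ := hna
    have hnil : IsPGroup r G := by
      obtain ⟨k, hk⟩ := IsPGroup.iff_card.1 S.isPGroup'
      exact IsPGroup.iff_card.2 ⟨k, by rw [← hcard]; exact hk⟩
    haveI := hnil.isNilpotent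
    have hsol : Group.IsSolvable G := inferInstance
    exact hab ((IsSimpleGroup.comm_iff_isSolvable (G := G)).2 hsol a b)
  · rw [h, Subgroup.card_top] at hcard
    have hG : 0 < Nat.card G := Nat.card_pos
    have : Nat.card S = 1 := by
      have h1 : Nat.card G * Nat.card (S : Subgroup G) = Nat.card G * 1 := by rw [hcard, mul_one]
      exact Nat.eq_of_mul_eq_mul_left hG h1
    exact hS this

/-- Assembling the three characters. -/
theorem assemble (hna : ∃ a b : G, a * b ≠ b * a) (c₂ c₃ : IrrCharacter G) (s₂ s₃ : ℤ)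
    (hs₂ : s₂ = 1 ∨ s₂ = -1) (hs₃ : s₃ = 1 ∨ s₃ = -1)
    (hc₂ : (c₂ : G → ℂ) ≠ fun _ => 1) (hc₃ : (c₃ : G → ℂ) ≠ fun _ => 1)
    (hreg : ∀ g : G, ¬ 3 ∣ orderOf g → 1 + (s₂ : ℂ) * (c₂ : G → ℂ) g + (s₃ : ℂ) * (c₃ : G → ℂ) g = 0)
    (hsing : ∀ g : G, 3 ∣ orderOf g → (c₂ : G → ℂ) g = s₂ ∧ (c₃ : G → ℂ) g = s₃) :
    ∃ L U : IrrCharacter G, (L : G → ℂ) ≠ (fun _ => 1) ∧ (U : G → ℂ) ≠ (fun _ => 1) ∧
      (∀ g, ¬ 3 ∣ orderOf g → (U : G → ℂ) g = (L : G → ℂ) g + 1) ∧
      (∀ g, 3 ∣ orderOf g → (L : G → ℂ) g = 1 ∧ (U : G → ℂ) g = -1) := by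
  have hd₂ := two_le_degree hna c₂ hc₂
  have hd₃ := two_le_degree hna c₃ hc₃
  have hc1 := IsCharacter.charDegree_cast (Cfsg.Agent.Lib.Char.Basic.isCharacter_of_isIrrCharacter c₂.2)
  have hc2 := IsCharacter.charDegree_cast (Cfsg.Agent.Lib.Char.Basic.isCharacter_of_isIrrCharacter c₃.2)
  have h1 := hreg 1 (by simp)
  rw [← hc1, ← hc2] at h1
  have h2 : (1 : ℤ) + s₂ * (charDegree (c₂ : G → ℂ) : ℤ) + s₃ * (charDegree (c₃ : G → ℂ) : ℤ) = 0 := by
    exact_mod_cast h1
  rcases hs₂ with rfl | rfl <;> rcases hs₃ with rfl | rfl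
  · exfalso
    omega
  · refine ⟨c₂, c₃, hc₂, hc₃, fun g hg => ?_, fun g hg => ?_⟩
    · have := hreg g hg
      push_cast at this
      linear_combination -this
    · have := hsing g hg
      simpa using this
  · refine ⟨c₃, c₂, hc₃, hc₂, fun g hg => ?_, fun g hg => ?_⟩
    · have := hreg g hg
      push_cast at this
      linear_combination -this
    · have := hsing g hg
      simpa using this.symm
  · exfalso
    omega

/-- The table at `3`. -/
theorem exists_LU (hna : ∃ a b : G, a * b ≠ b * a) (R : Sylow 3 G) (hR : Nat.card R = 3) :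
    ∃ L U : IrrCharacter G, (L : G → ℂ) ≠ (fun _ => 1) ∧ (U : G → ℂ) ≠ (fun _ => 1) ∧
      (∀ g, ¬ 3 ∣ orderOf g → (U : G → ℂ) g = (L : G → ℂ) g + 1) ∧
      (∀ g, 3 ∣ orderOf g → (L : G → ℂ) g = 1 ∧ (U : G → ℂ) g = -1) := by
  classical
  letI : Fintype G := Fintype.ofFinite G
  haveI hf3 : Fact (Nat.Prime 3) := ⟨Nat.prime_three⟩
  haveI : Nontrivial (R : Subgroup G) := by
    apply Finite.one_lt_card_iff_nontrivial.1
    change 1 < Nat.card R
    omega
  obtain ⟨⟨x, hxR⟩, hxne⟩ := exists_ne (1 : (R : Subgroup G))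
  have hx1 : x ≠ 1 := fun h => hxne (Subtype.ext h)
  obtain ⟨hz, H, hL⟩ := exists_localData R hR hxR hx1
  letI : Fintype H := Fintype.ofFinite _
  obtain ⟨M, hM⟩ := Cfsg.Agent.Lib.Blocks.ClassIndep.exists_modular 3 Nat.prime_three
  have hζ : IsPrimitiveRoot (Complex.exp (2 * Real.pi * Complex.I / (3 : ℕ))) 3 :=
    Complex.isPrimitiveRoot_exp 3 (by norm_num)
  obtain ⟨e, t, X, Y, δ, ε, b, hT⟩ := exists_pTable hL hM R hz hζ
  set ζ : ℂ := Complex.exp (2 * Real.pi * Complex.I / (3 : ℕ)) with hζdef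
  have hord := hL.ord
  -- `e = 2`
  have he : e = 2 ∧ t = 1 := by
    have h1 := hT.het
    have h2 : e * t = 2 := by omega
    have h3 : e ≠ 1 := by
      intro h4
      have h5 := hT.idx
      rw [h4, Subgroup.relIndex_eq_one] at h5
      rw [hz] at h5
      apply not_normalizer_le hna R (by omega)
      exact h5
    have h4 : e ∣ 2 := ⟨t, h2.symm⟩
    rcases (Nat.dvd_prime Nat.prime_two).1 h4 with h5 | h5
    · exact absurd h5 h3
    · subst h5
      exact ⟨rfl, by omega⟩
  obtain ⟨rfl, rfl⟩ := he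
  -- conjugating into the section
  have hsec : ∀ g : G, 3 ∣ orderOf g → ∃ (c : G) (i : ZMod 3) (y : H), i ≠ 0 ∧ c * g * c⁻¹ = XX x i * y := by
    intro g hg
    obtain ⟨u, y, huy, hcomm, ⟨k, hk⟩, hy⟩ := Cfsg.Agent.Lib.Blocks.SecondMain.exists_isPPart 3 g
    have hu1 : u ≠ 1 := by
      rintro rfl
      rw [one_mul] at huy
      exact hy (huy ▸ hg)
    have hup : IsPGroup 3 (zpowers u) := by
      rw [IsPGroup.iff_card]
      refine ⟨k, ?_⟩
      rw [Nat.card_zpowers, hk]
    obtain ⟨Q, hQ⟩ := hup.exists_le_sylow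
    obtain ⟨c, hc⟩ := MulAction.exists_smul_eq G Q R
    have huQ : u ∈ (Q : Subgroup G) := hQ (mem_zpowers u)
    have hcu : c * u * c⁻¹ ∈ (R : Subgroup G) := by
      rw [← hc, Sylow.coe_subgroup_smul]
      exact ⟨u, huQ, rfl⟩
    rw [← hz] at hcu
    obtain ⟨i, hi⟩ := exists_XX_of_mem hord hcu
    have hi0 : i ≠ 0 := by
      rintro rfl
      rw [XX_zero] at hi
      apply hu1
      have : c * u * c⁻¹ = c * 1 * c⁻¹ := by rw [hi]; group
      simpa using this
    have hcomm' : (c * y * c⁻¹) * XX x i = XX x i * (c * y * c⁻¹) := by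
      rw [← hi]
      have := hcomm.eq
      calc c * y * c⁻¹ * (c * u * c⁻¹) = c * (y * u) * c⁻¹ := by group
        _ = c * (u * y) * c⁻¹ := by rw [this]
        _ = c * u * c⁻¹ * (c * y * c⁻¹) := by group
    have hxpow : x = XX x i ^ (i⁻¹).val := by
      rw [← XX_mul_val hord, inv_mul_cancel₀ hi0, XX_one hord]
    have hcomm2 : (c * y * c⁻¹) * x = x * (c * y * c⁻¹) := by
      have h1 : Commute (c * y * c⁻¹) (XX x i) := hcomm'
      have h2 := h1.pow_right (i⁻¹).val
      rw [← hxpow] at h2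
      exact h2
    have hno : ¬ 3 ∣ orderOf (c * y * c⁻¹) := by
      rwa [show c * y * c⁻¹ = MulAut.conj c y from rfl, MulEquiv.orderOf_eq]
    have hmem := hL.mem_iff.2 ⟨hcomm2, hno⟩
    refine ⟨c, i, ⟨_, hmem⟩, hi0, ?_⟩
    rw [← huy, ← hi]
    group
  have hclass : ∀ (χ : IrrCharacter G) (c g : G), (χ : G → ℂ) (c * g * c⁻¹) = (χ : G → ℂ) g :=
    fun χ c g => Cfsg.Agent.Lib.Char.Basic.isClassFunction_of_isCharacter
      (Cfsg.Agent.Lib.Char.Basic.isCharacter_of_isIrrCharacter χ.2) g c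
  -- values on singular elements
  have hsingX : ∀ χ ∈ X, ∀ g : G, 3 ∣ orderOf g → (χ : G → ℂ) g = δ χ := by
    intro χ hχ g hg
    obtain ⟨c, i, y, hi, hcg⟩ := hsec g hg
    rw [← hclass χ c g, hcg]
    exact hT.valX χ hχ i hi y
  have hsingY : ∀ θ ∈ Y, ∀ g : G, 3 ∣ orderOf g → (θ : G → ℂ) g = -ε := by
    intro θ hθ g hg
    obtain ⟨c, i, y, hi, hcg⟩ := hsec g hg
    rw [← hclass θ c g, hcg, hT.valY θ hθ i hi y]
    have hF : perF (p := 3) 2 (b θ) = univ.erase (0 : ZMod 3) := by
      apply Finset.eq_of_subset_of_card_le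
      · intro a ha
        simp only [perF, mem_filter] at ha
        exact ha.1
      · rw [hT.cardF θ hθ, card_erase_of_mem (mem_univ _), card_univ, ZMod.card]
    have hη : perEta ζ 2 (b θ) i = -1 := by
      unfold perEta
      rw [hF]
      have := sum_zeta_erase hζ hi
      rw [← this]
      exact sum_congr rfl fun a _ => by rw [mul_comm]
    rw [hη]
    ring
  have hdisj := hT.disj
  have hsignX := hT.signX
  have hsign := hT.sign
  obtain ⟨a, c, hac, hXe⟩ := Finset.card_eq_two.1 hT.cardX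
  obtain ⟨θ, hYe⟩ := Finset.card_eq_one.1 hT.cardY
  have haX : a ∈ X := by rw [hXe]; simp
  have hcX : c ∈ X := by rw [hXe]; simp
  have hθY : θ ∈ Y := by rw [hYe]; simp
  have haθ : a ≠ θ := fun h => (Finset.disjoint_left.1 hdisj haX) (h ▸ hθY)
  have hcθ : c ≠ θ := fun h => (Finset.disjoint_left.1 hdisj hcX) (h ▸ hθY)
  have hrel : ∀ g : G, ¬ 3 ∣ orderOf g → (δ a : ℂ) * (a : G → ℂ) g + (δ c : ℂ) * (c : G → ℂ) g + (-(ε : ℂ)) * (θ : G → ℂ) g = 0 := by
    intro g hg
    have := hT.rel g hg θ hθY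
    rw [hXe, Finset.sum_pair hac] at this
    linear_combination -this
  -- the trivial character
  haveI hMp : M.IsPrime := Cfsg.Agent.Lib.Blocks.Local.isPrime_of_isPModular hM
  have h1mem : trivChar G ∈ principalBlock M G := trivChar_mem_principalBlock
  rw [hT.block] at h1mem
  have h1mem' : trivChar G ∈ X ∪ Y := by exact_mod_cast h1mem
  rw [hXe, hYe] at h1mem'
  have hne_of : ∀ χ : IrrCharacter G, χ ≠ trivChar G → (χ : G → ℂ) ≠ fun _ => 1 := by
    intro χ hχ h
    exact hχ (Subtype.ext h)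
  -- an element of order 3
  have hx3 : 3 ∣ orderOf x := by rw [hord]
  simp only [mem_union, mem_insert, mem_singleton] at h1mem'
  rcases h1mem' with (h1 | h1) | h1
  · -- trivial is `a`
    have hδa : δ a = 1 := by
      have h2 := hsingX a haX x hx3
      rw [← h1] at h2
      have h3 : ((δ (trivChar G) : ℤ) : ℂ) = 1 := by
        rw [← h2]
        rfl
      rw [← h1]
      exact_mod_cast h3
    refine assemble hna c θ (δ c) (-ε) (hsignX c hcX) (by rcases hsign with h | h <;> simp [h])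
      (hne_of c (by rw [h1]; exact hac.symm)) (hne_of θ (by rw [h1]; exact haθ.symm)) ?_ ?_
    · intro g hg
      have h2 := hrel g hg
      rw [hδa] at h2
      have h3 : (a : G → ℂ) g = 1 := by rw [← h1]; rfl
      rw [h3] at h2
      push_cast at h2 ⊢
      linear_combination h2
    · intro g hg
      refine ⟨hsingX c hcX g hg, ?_⟩
      rw [hsingY θ hθY g hg]
      push_cast
      ring
  · -- trivial is `c`
    have hδc : δ c = 1 := by
      have h2 := hsingX c hcX x hx3
      rw [← h1] at h2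
      have h3 : ((δ (trivChar G) : ℤ) : ℂ) = 1 := by
        rw [← h2]
        rfl
      rw [← h1]
      exact_mod_cast h3
    refine assemble hna a θ (δ a) (-ε) (hsignX a haX) (by rcases hsign with h | h <;> simp [h])
      (hne_of a (by rw [h1]; exact hac)) (hne_of θ (by rw [h1]; exact hcθ.symm)) ?_ ?_
    · intro g hg
      have h2 := hrel g hg
      rw [hδc] at h2
      have h3 : (c : G → ℂ) g = 1 := by rw [← h1]; rfl
      rw [h3] at h2
      push_cast at h2 ⊢
      linear_combination h2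
    · intro g hg
      refine ⟨hsingX a haX g hg, ?_⟩
      rw [hsingY θ hθY g hg]
      push_cast
      ring
  · -- trivial is `θ`
    have hε : -ε = 1 := by
      have h2 := hsingY θ hθY x hx3
      rw [← h1] at h2
      have h3 : ((-ε : ℤ) : ℂ) = 1 := by
        push_cast
        rw [← h2]
        rfl
      exact_mod_cast h3
    refine assemble hna a c (δ a) (δ c) (hsignX a haX) (hsignX c hcX)
      (hne_of a (by rw [h1]; exact haθ)) (hne_of c (by rw [h1]; exact hcθ)) ?_ ?_
    · intro g hg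
      have h2 := hrel g hg
      have h3 : (θ : G → ℂ) g = 1 := by rw [← h1]; rfl
      have h4 : -(ε : ℂ) = 1 := by exact_mod_cast hε
      rw [h3, h4] at h2
      linear_combination h2
    · intro g hg
      exact ⟨hsingX a haX g hg, hsingX c hcX g hg⟩

end Cfsg.Agent.Lib.ThreePQ
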