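import Mathlib

/-!
# Arithmetic for simple groups of order `4 p^a q^b` and `3 p^a 2^b`
-/

set_option autoImplicit false

namespace Cfsg.Agent.Lib.ThreePQ

/-- All prime factors of `n` are `2`, `p` or `q`. -/
def PF (p q n : ℕ) : Prop := ∀ ℓ : ℕ, ℓ.Prime → ℓ ∣ n → ℓ = 2 ∨ ℓ = p ∨ ℓ = q

lemma PF.of_dvd {p q n m : ℕ} (h : PF p q n) (hm : m ∣ n) : PF p q m :=
  fun ℓ hℓ hd => h ℓ hℓ (hd.trans hm)

/-- A number all of whose prime factors are a given prime is a power of it. -/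
lemma eq_pow_of_unique {n r : ℕ} (hn : n ≠ 0) (h : ∀ ℓ : ℕ, ℓ.Prime → ℓ ∣ n → ℓ = r) : ∃ k, n = r ^ k :=
  ⟨_, Nat.eq_prime_pow_of_unique_prime_dvd hn (fun {d} hd hdn => h d hd hdn)⟩

/-- The basic purity statement. -/
lemma pure_of_coprime {p q n m : ℕ} (hpq : p ≠ q) (hp : p.Prime) (hq : q.Prime)
    (hn0 : n ≠ 0) (hn : Odd n) (hm : Odd m)
    (hPn : PF p q n) (hPm : PF p q m) (hco : Nat.Coprime n m) (hm1 : 1 < m) :
    ∃ r s : ℕ, ((r = p ∧ s = q) ∨ (r = q ∧ s = p)) ∧ (∃ k, n = r ^ k) ∧ s ∣ m := by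
  have hsm := Nat.minFac_dvd m
  have hsp := Nat.minFac_prime (by omega : m ≠ 1)
  have hs2 : m.minFac ≠ 2 := by
    intro h
    rw [h] at hsm
    exact (Nat.not_even_iff_odd.2 hm) (even_iff_two_dvd.2 hsm)
  have hsn : ¬ m.minFac ∣ n := by
    intro h
    have := Nat.dvd_gcd h hsm
    rw [hco] at this
    exact hsp.one_lt.ne' (Nat.dvd_one.1 this)
  have key : ∀ r s : ℕ, s = m.minFac → (∀ ℓ : ℕ, ℓ = p ∨ ℓ = q → ℓ = s ∨ ℓ = r) → ∃ k, n = r ^ k := by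
    intro r s hs hrs
    apply eq_pow_of_unique hn0
    intro ℓ hℓ hd
    have h1 := hPn ℓ hℓ hd
    have h2 : ℓ ≠ 2 := by
      rintro rfl
      exact (Nat.not_even_iff_odd.2 hn) (even_iff_two_dvd.2 hd)
    have h3 : ℓ = p ∨ ℓ = q := by tauto
    rcases hrs ℓ h3 with h4 | h4
    · exact absurd (by rw [← hs, ← h4]; exact hd) hsn
    · exact h4
  rcases hPm _ hsp hsm with h | h | h
  · exact absurd h hs2
  · refine ⟨q, p, Or.inr ⟨rfl, rfl⟩, key q p h.symm ?_, h ▸ hsm⟩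
    tauto
  · refine ⟨p, q, Or.inl ⟨rfl, rfl⟩, key p q h.symm ?_, h ▸ hsm⟩
    tauto

/-- Equal powers: `s^c + s^d = 2 s^b` forces all equal. -/
lemma two_mul_pow_sum {s c d b : ℕ} (hs : s.Prime) (hs2 : s ≠ 2) (h : s ^ c + s ^ d = 2 * s ^ b) :
    s ^ c = s ^ b ∧ s ^ d = s ^ b := by
  have hco2 : Nat.Coprime s 2 := (Nat.coprime_primes hs Nat.prime_two).2 hs2
  have aux : ∀ c d b : ℕ, c < d → s ^ c + s ^ d = 2 * s ^ b → False := by
    intro c d b hcd h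
    obtain ⟨e, rfl⟩ : ∃ e, d = c + (e + 1) := ⟨d - c - 1, by omega⟩
    have h1 : s ^ c * (1 + s ^ (e + 1)) = 2 * s ^ b := by rw [← h, pow_add]; ring
    have hco : Nat.Coprime s (1 + s ^ (e + 1)) := by
      have : Nat.Coprime s (1 + s * s ^ e) := by simp
      rwa [pow_succ'] 
    have h2 : s ^ c ∣ s ^ b := by
      have : s ^ c ∣ 2 * s ^ b := ⟨_, h1.symm⟩
      exact (Nat.Coprime.pow_left c hco2).dvd_of_dvd_mul_left this
    have h3 : s ^ b ∣ s ^ c := by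
      have : s ^ b ∣ s ^ c * (1 + s ^ (e + 1)) := ⟨2, by rw [h1]; ring⟩
      exact (Nat.Coprime.pow_left b hco).dvd_of_dvd_mul_right this
    have h4 : s ^ c = s ^ b := Nat.dvd_antisymm h2 h3
    rw [h4] at h1
    have h5 : 1 + s ^ (e + 1) = 2 := by
      have hpos : 0 < s ^ b := pow_pos hs.pos _
      nlinarith
    have h6 : 2 ≤ s ^ (e + 1) := by
      calc 2 ≤ s := hs.two_le
        _ = s ^ 1 := (pow_one s).symm
        _ ≤ s ^ (e + 1) := Nat.pow_le_pow_right hs.pos (by omega)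
    omega
  rcases lt_trichotomy c d with hlt | heq | hgt
  · exact (aux c d b hlt h).elim
  · subst heq
    have : s ^ c = s ^ b := by omega
    exact ⟨this, this⟩
  · exact (aux d c b hgt (by rw [add_comm]; exact h)).elim

/-- A prime power of exponent at least one. -/
def PPow (r n : ℕ) : Prop := ∃ k, 1 ≤ k ∧ n = r ^ k

lemma PPow.dvd {r n : ℕ} (h : PPow r n) : r ∣ n := by
  obtain ⟨k, hk, rfl⟩ := h
  exact dvd_pow_self r (by omega)

lemma PPow.of_eq_pow {r n k : ℕ} (hn : 1 < n) (h : n = r ^ k) : PPow r n := by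
  refine ⟨k, ?_, h⟩
  rcases k with _ | k
  · rw [pow_zero] at h
    omega
  · omega

/-- The sum lemma. -/
lemma sum_pure {r s x y b : ℕ} (hr : r.Prime) (hs : s.Prime) (hrs : r ≠ s) (hr2 : r ≠ 2) (hs2 : s ≠ 2)
    (hx : PPow r x ∨ PPow s x) (hy : PPow r y ∨ PPow s y) (hb : 1 ≤ b) (h : x + y = 2 * s ^ b) :
    x = s ^ b ∧ y = s ^ b := by
  have hsd : s ∣ 2 * s ^ b := Dvd.dvd.mul_left (dvd_pow_self s (by omega)) 2
  have hrnd : ¬ r ∣ 2 * s ^ b := by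
    intro hd
    rcases (Nat.Prime.dvd_mul hr).1 hd with h1 | h1
    · exact hr2 ((Nat.prime_dvd_prime_iff_eq hr Nat.prime_two).1 h1)
    · exact hrs ((Nat.prime_dvd_prime_iff_eq hr hs).1 (hr.dvd_of_dvd_pow h1))
  have hnot : ∀ {x y : ℕ}, x + y = 2 * s ^ b → PPow r x → (PPow r y ∨ PPow s y) → False := by
    intro x y h hx hy
    rcases hy with hy | hy
    · exact hrnd (h ▸ Nat.dvd_add hx.dvd hy.dvd)
    · have h1 : s ∣ x := (Nat.dvd_add_left hy.dvd).1 (h ▸ hsd)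
      obtain ⟨k, _, rfl⟩ := hx
      exact hrs ((Nat.prime_dvd_prime_iff_eq hs hr).1 (hs.dvd_of_dvd_pow h1)).symm
  have hx' : PPow s x := by
    rcases hx with hx | hx
    · exact (hnot h hx hy).elim
    · exact hx
  have hy' : PPow s y := by
    rcases hy with hy | hy
    · exact (hnot (by rw [add_comm]; exact h) hy (Or.inr hx')).elim
    · exact hy
  obtain ⟨c, _, rfl⟩ := hx'
  obtain ⟨d, _, rfl⟩ := hy'
  exact two_mul_pow_sum hs hs2 h

lemma other_prime {p q s r ℓ : ℕ} (h : (r = p ∧ s = q) ∨ (r = q ∧ s = p)) (hℓ : ℓ = 2 ∨ ℓ = p ∨ ℓ = q)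
    (hℓ2 : ℓ ≠ 2) (hℓs : ℓ ≠ s) : ℓ = r := by
  rcases h with ⟨rfl, rfl⟩ | ⟨rfl, rfl⟩ <;> tauto

/-- Minus case of the Klein four numerics. -/
theorem klein_minus {p q x₁ x₂ x₃ : ℕ} (hp : p.Prime) (hq : q.Prime) (hpq : p ≠ q) (hp2 : p ≠ 2) (hq2 : q ≠ 2)
    (h₁ : x₁ % 4 = 1) (h₂ : x₂ % 4 = 3) (h₃ : x₃ % 4 = 3) (hx₁ : x₁ ≠ 1)
    (hP₁ : PF p q x₁) (hP₁' : PF p q (x₁ + 1)) (hP₂ : PF p q x₂) (hP₂' : PF p q (x₂ - 1))
    (hP₃ : PF p q x₃) (hP₃' : PF p q (x₃ - 1)) (hsum : x₁ + 1 = x₂ + x₃) : x₂ = 3 := by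
  by_contra hne
  -- purity of `x₂`, `x₃`
  have hpure : ∀ x : ℕ, x % 4 = 3 → PF p q x → PF p q (x - 1) → PPow p x ∨ PPow q x := by
    intro x hx hPx hPx'
    obtain ⟨m, hm⟩ : ∃ m, x = 2 * m + 1 := ⟨x / 2, by omega⟩
    have hmodd : Odd m := by
      rw [Nat.odd_iff]
      omega
    by_cases hm1 : m = 1
    · subst hm1
      have hx3 : x = 3 := by omega
      subst hx3
      rcases hPx 3 Nat.prime_three dvd_rfl with h | h | h
      · omega
      · left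
        exact ⟨1, le_refl _, by rw [pow_one]; exact h⟩
      · right
        exact ⟨1, le_refl _, by rw [pow_one]; exact h⟩
    · have hm1' : 1 < m := by
        have := hmodd.pos
        omega
      have hco : Nat.Coprime x m := by
        rw [hm]
        simp
      have hPm : PF p q m := hPx'.of_dvd ⟨2, by omega⟩
      obtain ⟨r, s, hrs, ⟨k, hk⟩, _⟩ := pure_of_coprime hpq hp hq (by omega) (by rw [Nat.odd_iff]; omega) hmodd
        hPx hPm hco hm1'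
      have hpow := PPow.of_eq_pow (by omega : 1 < x) hk
      rcases hrs with ⟨rfl, rfl⟩ | ⟨rfl, rfl⟩
      · exact Or.inl hpow
      · exact Or.inr hpow
  obtain ⟨m₁, hm₁⟩ : ∃ m, x₁ + 1 = 2 * m := ⟨(x₁ + 1) / 2, by omega⟩
  have hm₁odd : Odd m₁ := by
    rw [Nat.odd_iff]
    omega
  have hm₁1 : 1 < m₁ := by omega
  have hco₁ : Nat.Coprime x₁ m₁ := by
    have h1 : Nat.Coprime x₁ (x₁ + 1) := by simp
    rw [hm₁] at h1
    exact Nat.Coprime.coprime_dvd_right ⟨2, by ring⟩ h1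
  have hPm₁ : PF p q m₁ := hP₁'.of_dvd ⟨2, by omega⟩
  obtain ⟨r, s, hrs, ⟨k, hk⟩, hsm⟩ := pure_of_coprime hpq hp hq (by omega) (by rw [Nat.odd_iff]; omega) hm₁odd
    hP₁ hPm₁ hco₁ hm₁1
  obtain ⟨r', s', hrs', ⟨k', hk'⟩, _⟩ := pure_of_coprime hpq hp hq (by omega) hm₁odd (by rw [Nat.odd_iff]; omega)
    hPm₁ hP₁ hco₁.symm (by omega)
  have hrP : r.Prime := by rcases hrs with ⟨rfl, rfl⟩ | ⟨rfl, rfl⟩ <;> assumption
  have hsP : s.Prime := by rcases hrs with ⟨rfl, rfl⟩ | ⟨rfl, rfl⟩ <;> assumption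
  have hr'P : r'.Prime := by rcases hrs' with ⟨rfl, rfl⟩ | ⟨rfl, rfl⟩ <;> assumption
  have hrne : r ≠ s := by rcases hrs with ⟨rfl, rfl⟩ | ⟨rfl, rfl⟩ <;> tauto
  have hr2 : r ≠ 2 := by rcases hrs with ⟨rfl, rfl⟩ | ⟨rfl, rfl⟩ <;> assumption
  have hs2 : s ≠ 2 := by rcases hrs with ⟨rfl, rfl⟩ | ⟨rfl, rfl⟩ <;> assumption
  have hsr' : s = r' := by
    rw [hk'] at hsm
    exact (Nat.prime_dvd_prime_iff_eq hsP hr'P).1 (hsP.dvd_of_dvd_pow hsm)
  subst hsr'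
  have hk'1 : 1 ≤ k' := by
    rcases k' with _ | k'
    · rw [pow_zero] at hk'
      omega
    · omega
  have conv : ∀ x : ℕ, (PPow p x ∨ PPow q x) → PPow r x ∨ PPow s x := by
    intro x hx
    rcases hrs with ⟨rfl, rfl⟩ | ⟨rfl, rfl⟩
    · exact hx
    · exact hx.symm
  have hsum' : x₂ + x₃ = 2 * s ^ k' := by omega
  obtain ⟨hx₂, hx₃⟩ := sum_pure hrP hsP hrne hr2 hs2 (conv _ (hpure x₂ h₂ hP₂ hP₂')) (conv _ (hpure x₃ h₃ hP₃ hP₃'))
    hk'1 hsum'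
  -- the number `(x₂ - 1) / 2`
  obtain ⟨m₂, hm₂⟩ : ∃ m, x₂ = 2 * m + 1 := ⟨x₂ / 2, by omega⟩
  have hm₂odd : Odd m₂ := by
    rw [Nat.odd_iff]
    omega
  have hm₂1 : 1 < m₂ := by
    have := hm₂odd.pos
    by_contra h
    have : m₂ = 1 := by omega
    omega
  have hℓd := Nat.minFac_dvd m₂
  have hℓp := Nat.minFac_prime (by omega : m₂ ≠ 1)
  have hℓ1 := hP₂'.of_dvd (⟨2, by omega⟩ : m₂ ∣ x₂ - 1) _ hℓp hℓd
  have hℓ2 : m₂.minFac ≠ 2 := by
    intro h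
    rw [h] at hℓd
    exact (Nat.not_even_iff_odd.2 hm₂odd) (even_iff_two_dvd.2 hℓd)
  have hℓs : m₂.minFac ≠ s := by
    intro h
    have h1 : s ∣ x₂ := by
      rw [hx₂]
      exact dvd_pow_self s (by omega)
    have h2 : s ∣ m₂ := h ▸ hℓd
    have h3 : s ∣ 1 := by
      have h4 : s ∣ 2 * m₂ := Dvd.dvd.mul_left h2 2
      rw [hm₂] at h1
      exact (Nat.dvd_add_right h4).1 h1
    exact hsP.one_lt.ne' (Nat.dvd_one.1 h3)
  have hℓr := other_prime hrs hℓ1 hℓ2 hℓs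
  have hrm₂ : r ∣ m₂ := hℓr ▸ hℓd
  have hrx₁ : r ∣ x₁ := by
    rw [hk]
    apply dvd_pow_self
    rintro rfl
    rw [pow_zero] at hk
    exact hx₁ hk
  -- `x₁ = 4 m₂ + 1`
  have hx₁eq : x₁ = 4 * m₂ + 1 := by omega
  have h1 : r ∣ 1 := by
    have h4 : r ∣ 4 * m₂ := Dvd.dvd.mul_left hrm₂ 4
    rw [hx₁eq] at hrx₁
    exact (Nat.dvd_add_right h4).1 hrx₁
  exact hrP.one_lt.ne' (Nat.dvd_one.1 h1)

/-- Plus case of the Klein four numerics. -/
theorem klein_plus {p q x₁ x₂ x₃ : ℕ} (hp : p.Prime) (hq : q.Prime) (hpq : p ≠ q) (hp2 : p ≠ 2) (hq2 : q ≠ 2)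
    (h₁ : x₁ % 4 = 1) (h₂ : x₂ % 4 = 1) (h₃ : x₃ % 4 = 3) (hx₁ : x₁ ≠ 1) (hx₂ : x₂ ≠ 1)
    (hP₁ : PF p q x₁) (hP₁' : PF p q (x₁ + 1)) (hP₂ : PF p q x₂) (hP₂' : PF p q (x₂ + 1))
    (hP₃ : PF p q x₃) (hP₃' : PF p q (x₃ - 1)) (hsum : x₃ = 1 + x₁ + x₂) : False := by
  have hpure : ∀ x : ℕ, x % 4 = 1 → x ≠ 1 → PF p q x → PF p q (x + 1) → PPow p x ∨ PPow q x := by
    intro x hx hx1 hPx hPx'
    obtain ⟨m, hm⟩ : ∃ m, x + 1 = 2 * m := ⟨(x + 1) / 2, by omega⟩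
    have hmodd : Odd m := by
      rw [Nat.odd_iff]
      omega
    have hm1 : 1 < m := by omega
    have hco : Nat.Coprime x m := by
      have h1 : Nat.Coprime x (x + 1) := by simp
      rw [hm] at h1
      exact Nat.Coprime.coprime_dvd_right ⟨2, by ring⟩ h1
    obtain ⟨r, s, hrs, ⟨k, hk⟩, _⟩ := pure_of_coprime hpq hp hq (by omega) (by rw [Nat.odd_iff]; omega) hmodd
      hPx (hPx'.of_dvd ⟨2, by omega⟩) hco hm1
    have hpow := PPow.of_eq_pow (by omega : 1 < x) hk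
    rcases hrs with ⟨rfl, rfl⟩ | ⟨rfl, rfl⟩
    · exact Or.inl hpow
    · exact Or.inr hpow
  obtain ⟨m₃, hm₃⟩ : ∃ m, x₃ = 2 * m + 1 := ⟨x₃ / 2, by omega⟩
  have hm₃odd : Odd m₃ := by
    rw [Nat.odd_iff]
    omega
  have hm₃1 : 1 < m₃ := by omega
  have hco₃ : Nat.Coprime x₃ m₃ := by
    rw [hm₃]
    simp
  have hPm₃ : PF p q m₃ := hP₃'.of_dvd ⟨2, by omega⟩
  obtain ⟨r, s, hrs, ⟨k, hk⟩, hsm⟩ := pure_of_coprime hpq hp hq (by omega) (by rw [Nat.odd_iff]; omega) hm₃odd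
    hP₃ hPm₃ hco₃ hm₃1
  obtain ⟨r', s', hrs', ⟨k', hk'⟩, _⟩ := pure_of_coprime hpq hp hq (by omega) hm₃odd (by rw [Nat.odd_iff]; omega)
    hPm₃ hP₃ hco₃.symm (by omega)
  have hrP : r.Prime := by rcases hrs with ⟨rfl, rfl⟩ | ⟨rfl, rfl⟩ <;> assumption
  have hsP : s.Prime := by rcases hrs with ⟨rfl, rfl⟩ | ⟨rfl, rfl⟩ <;> assumption
  have hr'P : r'.Prime := by rcases hrs' with ⟨rfl, rfl⟩ | ⟨rfl, rfl⟩ <;> assumption
  have hrne : r ≠ s := by rcases hrs with ⟨rfl, rfl⟩ | ⟨rfl, rfl⟩ <;> tauto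
  have hr2 : r ≠ 2 := by rcases hrs with ⟨rfl, rfl⟩ | ⟨rfl, rfl⟩ <;> assumption
  have hs2 : s ≠ 2 := by rcases hrs with ⟨rfl, rfl⟩ | ⟨rfl, rfl⟩ <;> assumption
  have hsr' : s = r' := by
    rw [hk'] at hsm
    exact (Nat.prime_dvd_prime_iff_eq hsP hr'P).1 (hsP.dvd_of_dvd_pow hsm)
  subst hsr'
  have hk'1 : 1 ≤ k' := by
    rcases k' with _ | k'
    · rw [pow_zero] at hk'
      omega
    · omega
  have conv : ∀ x : ℕ, (PPow p x ∨ PPow q x) → PPow r x ∨ PPow s x := by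
    intro x hx
    rcases hrs with ⟨rfl, rfl⟩ | ⟨rfl, rfl⟩
    · exact hx
    · exact hx.symm
  have hsum' : x₁ + x₂ = 2 * s ^ k' := by omega
  obtain ⟨hx₁', _⟩ := sum_pure hrP hsP hrne hr2 hs2 (conv _ (hpure x₁ h₁ hx₁ hP₁ hP₁'))
    (conv _ (hpure x₂ h₂ hx₂ hP₂ hP₂')) hk'1 hsum'
  obtain ⟨m₁, hm₁⟩ : ∃ m, x₁ + 1 = 2 * m := ⟨(x₁ + 1) / 2, by omega⟩
  have hm₁odd : Odd m₁ := by
    rw [Nat.odd_iff]
    omega
  have hm₁1 : m₁ ≠ 1 := by omega
  have hℓd := Nat.minFac_dvd m₁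
  have hℓp := Nat.minFac_prime hm₁1
  have hℓ1 := hP₁'.of_dvd (⟨2, by omega⟩ : m₁ ∣ x₁ + 1) _ hℓp hℓd
  have hℓ2 : m₁.minFac ≠ 2 := by
    intro h
    rw [h] at hℓd
    exact (Nat.not_even_iff_odd.2 hm₁odd) (even_iff_two_dvd.2 hℓd)
  have hℓs : m₁.minFac ≠ s := by
    intro h
    have h1 : s ∣ x₁ := by
      rw [hx₁']
      exact dvd_pow_self s (by omega)
    have h2 : s ∣ x₁ + 1 := (h ▸ hℓd : s ∣ m₁).trans ⟨2, by omega⟩
    have h3 : s ∣ 1 := (Nat.dvd_add_right h1).1 h2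
    exact hsP.one_lt.ne' (Nat.dvd_one.1 h3)
  have hℓr := other_prime hrs hℓ1 hℓ2 hℓs
  have hr1 : r ∣ x₁ + 1 := (hℓr ▸ hℓd : r ∣ m₁).trans ⟨2, by omega⟩
  have hr3 : r ∣ x₃ := by
    rw [hk]
    apply dvd_pow_self
    rintro rfl
    rw [pow_zero] at hk
    omega
  have hx₃eq : 2 * (x₁ + 1) = x₃ + 1 := by omega
  have h1 : r ∣ 1 := by
    have h4 : r ∣ x₃ + 1 := by
      rw [← hx₃eq]
      exact Dvd.dvd.mul_left hr1 2
    exact (Nat.dvd_add_right hr3).1 h4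
  exact hrP.one_lt.ne' (Nat.dvd_one.1 h1)

/-- Consecutive numbers with prime factors in `{2, p}`. -/
theorem consecutive_pure {n p : ℕ} (hp : p.Prime) (hp2 : p ≠ 2) (hn : 2 ≤ n)
    (h : ∀ ℓ : ℕ, ℓ.Prime → ℓ ∣ n → ℓ = 2 ∨ ℓ = p) (h' : ∀ ℓ : ℕ, ℓ.Prime → ℓ ∣ n + 1 → ℓ = 2 ∨ ℓ = p) :
    (∃ i j, 1 ≤ i ∧ 1 ≤ j ∧ n = 2 ^ i ∧ n + 1 = p ^ j) ∨ (∃ i j, 1 ≤ i ∧ 1 ≤ j ∧ n = p ^ j ∧ n + 1 = 2 ^ i) := by
  have hco : Nat.Coprime n (n + 1) := by simp
  have hnot : ∀ ℓ : ℕ, ℓ.Prime → ℓ ∣ n → ℓ ∣ n + 1 → False := by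
    intro ℓ hℓ h1 h2
    have := Nat.dvd_gcd h1 h2
    rw [hco] at this
    exact hℓ.one_lt.ne' (Nat.dvd_one.1 this)
  have hexp : ∀ {m r k : ℕ}, 2 ≤ m → m = r ^ k → 1 ≤ k := by
    intro m r k hm hk
    rcases k with _ | k
    · rw [pow_zero] at hk
      omega
    · omega
  by_cases h2 : 2 ∣ n
  · left
    obtain ⟨i, hi⟩ := eq_pow_of_unique (by omega : n ≠ 0) (r := 2) (fun ℓ hℓ hd => by
      rcases h ℓ hℓ hd with h1 | h1
      · exact h1
      · exfalso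
        subst h1
        have h3 : ¬ ℓ ∣ n + 1 := fun h3 => hnot ℓ hℓ hd h3
        obtain ⟨j, hj⟩ := eq_pow_of_unique (by omega : n + 1 ≠ 0) (r := ℓ) (fun ℓ' hℓ' hd' => by
          rcases h' ℓ' hℓ' hd' with h4 | h4
          · subst h4
            exact (hnot 2 Nat.prime_two h2 hd').elim
          · exact h4)
        exact h3 (by rw [hj]; exact dvd_pow_self ℓ (by have := hexp (by omega : 2 ≤ n + 1) hj; omega)))
    obtain ⟨j, hj⟩ := eq_pow_of_unique (by omega : n + 1 ≠ 0) (r := p) (fun ℓ' hℓ' hd' => by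
      rcases h' ℓ' hℓ' hd' with h4 | h4
      · subst h4
        exact (hnot 2 Nat.prime_two h2 hd').elim
      · exact h4)
    exact ⟨i, j, hexp hn hi, hexp (by omega) hj, hi, hj⟩
  · right
    have h2' : 2 ∣ n + 1 := by omega
    obtain ⟨j, hj⟩ := eq_pow_of_unique (by omega : n ≠ 0) (r := p) (fun ℓ hℓ hd => by
      rcases h ℓ hℓ hd with h1 | h1
      · subst h1
        exact (h2 hd).elim
      · exact h1)
    obtain ⟨i, hi⟩ := eq_pow_of_unique (by omega : n + 1 ≠ 0) (r := 2) (fun ℓ hℓ hd => by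
      rcases h' ℓ hℓ hd with h1 | h1
      · exact h1
      · subst h1
        exact (hnot ℓ hℓ (by rw [hj]; exact dvd_pow_self ℓ (by have := hexp hn hj; omega)) hd).elim)
    exact ⟨i, j, hexp (by omega) hi, hexp hn hj, hj, hi⟩

/-- `p² ± 1` is not a power of two for a prime `p ≥ 5`. -/
theorem sq_add_one_ne_pow {p i : ℕ} (hp5 : 5 ≤ p) (hodd : Odd p) : p ^ 2 + 1 ≠ 2 ^ i := by
  intro h
  obtain ⟨k, rfl⟩ := hodd
  rcases i with _ | _ | i
  · rw [pow_zero] at h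
    nlinarith
  · rw [zero_add, pow_one] at h
    nlinarith
  · have h1 : (2 * k + 1) ^ 2 + 1 = 2 * (2 * (k ^ 2 + k) + 1) := by ring
    have h2 : 2 ^ (i + 1 + 1) = 2 * (2 * 2 ^ i) := by ring
    rw [h1, h2] at h
    omega

theorem sq_sub_one_ne_pow {p i : ℕ} (hp : p.Prime) (hp5 : 5 ≤ p) : 2 ^ i + 1 ≠ p ^ 2 := by
  intro h
  have h1 : (p - 1) * (p + 1) = 2 ^ i := by
    obtain ⟨k, rfl⟩ : ∃ k, p = k + 1 := ⟨p - 1, by omega⟩
    simp only [Nat.add_sub_cancel]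
    have : (k + 1) ^ 2 = k * (k + 1 + 1) + 1 := by ring
    omega
  obtain ⟨a, _, ha⟩ := (Nat.dvd_prime_pow Nat.prime_two).1 (⟨_, h1.symm⟩ : p - 1 ∣ 2 ^ i)
  obtain ⟨b, _, hb⟩ := (Nat.dvd_prime_pow Nat.prime_two).1 (⟨_, (by rw [mul_comm]; exact h1.symm)⟩ : p + 1 ∣ 2 ^ i)
  have h2 : 2 ^ b = 2 ^ a + 2 := by omega
  have ha2 : 2 ≤ a := by
    by_contra hc
    have : a = 0 ∨ a = 1 := by omega
    rcases this with rfl | rfl <;> simp at ha <;> omega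
  have hb2 : 3 ≤ b := by
    by_contra hc
    have : b = 0 ∨ b = 1 ∨ b = 2 := by omega
    have h5 : 4 ≤ 2 ^ a := by
      calc 4 = 2 ^ 2 := by norm_num
        _ ≤ 2 ^ a := Nat.pow_le_pow_right (by norm_num) ha2
    rcases this with rfl | rfl | rfl <;> simp at h2 <;> omega
  obtain ⟨a', rfl⟩ : ∃ a', a = a' + 2 := ⟨a - 2, by omega⟩
  obtain ⟨b', rfl⟩ : ∃ b', b = b' + 2 := ⟨b - 2, by omega⟩
  have h3 : 2 ^ (b' + 2) = 4 * 2 ^ b' := by ring
  have h4 : 2 ^ (a' + 2) = 4 * 2 ^ a' := by ring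
  rw [h3, h4] at h2
  omega

/-- In the Fermat case, `3 · 2^k ≡ 1` forces `i = 2`. -/
theorem fermat_numeric {i k : ℕ} (hi : 2 ≤ i) (h : (2 ^ i + 1) ∣ 3 * 2 ^ k - 1) : i = 2 := by
  set p := 2 ^ i + 1 with hp
  have hp3 : 5 ≤ p := by
    have : 4 ≤ 2 ^ i := by
      calc 4 = 2 ^ 2 := by norm_num
        _ ≤ 2 ^ i := Nat.pow_le_pow_right (by norm_num) hi
    omega
  -- reduction of the exponent: work with two predicates
  have key : ∀ k : ℕ, ((p ∣ 3 * 2 ^ k - 1) ∨ (p ∣ 3 * 2 ^ k + 1)) →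
      ∃ r, r < i ∧ ((p ∣ 3 * 2 ^ r - 1) ∨ (p ∣ 3 * 2 ^ r + 1)) := by
    intro k
    induction k using Nat.strong_induction_on with
    | _ k ih =>
      intro hk
      by_cases hki : k < i
      · exact ⟨k, hki, hk⟩
      · obtain ⟨e, rfl⟩ : ∃ e, k = i + e := ⟨k - i, by omega⟩
        apply ih e (by omega)
        have h1 : 3 * 2 ^ (i + e) + 3 * 2 ^ e = p * (3 * 2 ^ e) := by
          rw [hp, pow_add]
          ring
        have hge : 3 ≤ 3 * 2 ^ e := by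
          have : 1 ≤ 2 ^ e := Nat.one_le_two_pow
          omega
        have hge' : 3 ≤ 3 * 2 ^ (i + e) := by
          have : 1 ≤ 2 ^ (i + e) := Nat.one_le_two_pow
          omega
        rcases hk with hk | hk
        · right
          have h2 : (3 * 2 ^ (i + e) - 1) + (3 * 2 ^ e + 1) = p * (3 * 2 ^ e) := by omega
          exact (Nat.dvd_add_right hk).1 (h2 ▸ dvd_mul_right p _)
        · left
          have h2 : (3 * 2 ^ (i + e) + 1) + (3 * 2 ^ e - 1) = p * (3 * 2 ^ e) := by omega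
          exact (Nat.dvd_add_right hk).1 (h2 ▸ dvd_mul_right p _)
  obtain ⟨r, hri, hr⟩ := key k (Or.inl h)
  have hr2 : 2 ^ (r + 1) ≤ 2 ^ i := Nat.pow_le_pow_right (by norm_num) hri
  have hr3 : 2 * 2 ^ r ≤ 2 ^ i := by rw [pow_succ'] at hr2; exact hr2
  have hr1 : 1 ≤ 2 ^ r := Nat.one_le_two_pow
  rcases hr with hr | hr
  · obtain ⟨m, hm⟩ := hr
    have hm1 : m = 1 := by
      rcases m with _ | _ | m
      · omega
      · rfl
      · exfalso
        have : p * (m + 1 + 1) = p * m + 2 * p := by ring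
        have h4 : 2 * p ≤ p * (m + 1 + 1) := by nlinarith
        omega
    subst hm1
    have h5 : 3 * 2 ^ r = 2 ^ i + 2 := by omega
    rcases r with _ | _ | r
    · simp at h5
      omega
    · simp at h5
      have h6 : 2 ^ i = 2 ^ 2 := by omega
      exact Nat.pow_right_injective (le_refl 2) h6
    · exfalso
      obtain ⟨i', rfl⟩ : ∃ i', i = i' + 2 := ⟨i - 2, by omega⟩
      have h7 : 3 * 2 ^ (r + 1 + 1) = 4 * (3 * 2 ^ r) := by ring
      have h8 : 2 ^ (i' + 2) = 4 * 2 ^ i' := by ring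
      rw [h7, h8] at h5
      omega
  · obtain ⟨m, hm⟩ := hr
    exfalso
    have hm1 : m = 1 := by
      rcases m with _ | _ | m
      · omega
      · rfl
      · exfalso
        have h4 : 2 * p ≤ p * (m + 1 + 1) := by nlinarith
        omega
    subst hm1
    have h5 : 3 * 2 ^ r = 2 ^ i := by omega
    have h6 : 3 ∣ 2 ^ i := ⟨_, h5.symm⟩
    have := Nat.Prime.dvd_of_dvd_pow Nat.prime_three h6
    omega

/-- In the Mersenne case, `3 · 2^k ≡ 1` is impossible. -/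
theorem mersenne_numeric_two {i k : ℕ} (hi : 3 ≤ i) (h : (2 ^ i - 1) ∣ 3 * 2 ^ k - 1) : False := by
  set p := 2 ^ i - 1 with hp
  have h8 : 8 ≤ 2 ^ i := by
    calc 8 = 2 ^ 3 := by norm_num
      _ ≤ 2 ^ i := Nat.pow_le_pow_right (by norm_num) hi
  have key : ∀ k : ℕ, (p ∣ 3 * 2 ^ k - 1) → ∃ r, r < i ∧ p ∣ 3 * 2 ^ r - 1 := by
    intro k
    induction k using Nat.strong_induction_on with
    | _ k ih =>
      intro hk
      by_cases hki : k < i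
      · exact ⟨k, hki, hk⟩
      · obtain ⟨e, rfl⟩ : ∃ e, k = i + e := ⟨k - i, by omega⟩
        apply ih e (by omega)
        have h1 : 3 * 2 ^ (i + e) = p * (3 * 2 ^ e) + 3 * 2 ^ e := by
          rw [hp, pow_add]
          have : 2 ^ i = (2 ^ i - 1) + 1 := by omega
          nth_rewrite 1 [this]
          ring
        have hge : 3 ≤ 3 * 2 ^ e := by
          have : 1 ≤ 2 ^ e := Nat.one_le_two_pow
          omega
        have h2 : 3 * 2 ^ (i + e) - 1 = p * (3 * 2 ^ e) + (3 * 2 ^ e - 1) := by omega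
        rw [h2] at hk
        exact (Nat.dvd_add_right (dvd_mul_right p _)).1 hk
  obtain ⟨r, hri, hr⟩ := key k h
  have hr2 : 2 ^ (r + 1) ≤ 2 ^ i := Nat.pow_le_pow_right (by norm_num) hri
  have hr3 : 2 * 2 ^ r ≤ 2 ^ i := by rw [pow_succ'] at hr2; exact hr2
  have hr1 : 1 ≤ 2 ^ r := Nat.one_le_two_pow
  obtain ⟨m, hm⟩ := hr
  have hm1 : m = 1 := by
    rcases m with _ | _ | m
    · omega
    · rfl
    · exfalso
      have h4 : 2 * p ≤ p * (m + 1 + 1) := by nlinarith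
      omega
  subst hm1
  have h5 : 3 * 2 ^ r = 2 ^ i := by omega
  have h6 : 3 ∣ 2 ^ i := ⟨_, h5.symm⟩
  have := Nat.Prime.dvd_of_dvd_pow Nat.prime_three h6
  omega

/-- The divisor of `p - 1` and `3 · 2^b` in the Mersenne case. -/
theorem mersenne_dvd_six {i e b : ℕ} (hi : 2 ≤ i) (h1 : e ∣ 2 ^ i - 2) (h2 : e ∣ 3 * 2 ^ b) : e ∣ 6 := by
  obtain ⟨i', rfl⟩ : ∃ i', i = i' + 2 := ⟨i - 2, by omega⟩
  have hsub : 2 ^ (i' + 2) - 2 = 2 * (2 * 2 ^ i' - 1) := by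
    have : 2 ^ (i' + 2) = 4 * 2 ^ i' := by ring
    have h1 : 1 ≤ 2 ^ i' := Nat.one_le_two_pow
    omega
  rw [hsub] at h1
  have hodd : Odd (2 * 2 ^ i' - 1) := by
    have h1 : 1 ≤ 2 ^ i' := Nat.one_le_two_pow
    rw [Nat.odd_iff]
    omega
  have he0 : e ≠ 0 := by
    rintro rfl
    simp at h2
  obtain ⟨a, m, hm, rfl⟩ := Nat.exists_eq_two_pow_mul_odd he0
  have hm3 : m ∣ 3 := by
    have h3 : m ∣ 3 * 2 ^ b := (Dvd.intro_left _ rfl).trans h2
    exact (Nat.Coprime.pow_right b (Nat.coprime_two_right.2 hm)).dvd_of_dvd_mul_right h3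
  have ha : a ≤ 1 := by
    by_contra hc
    have h4 : 2 ^ 2 ∣ 2 * (2 * 2 ^ i' - 1) :=
      (pow_dvd_pow 2 (by omega : 2 ≤ a)).trans ((Dvd.intro _ rfl).trans h1)
    obtain ⟨c, hc⟩ := h4
    have h1 : 1 ≤ 2 ^ i' := Nat.one_le_two_pow
    obtain ⟨d, hd⟩ := hodd
    omega
  have h5 : 2 ^ a ∣ 2 := by
    calc 2 ^ a ∣ 2 ^ 1 := pow_dvd_pow 2 ha
      _ = 2 := by norm_num
  exact (mul_dvd_mul h5 hm3)

/-- The main inequality in the Mersenne case. -/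
theorem mersenne_main {p t f c aθ d ϑ : ℕ} {δ ε : ℤ} (hp7 : 7 ≤ p) (ht : p - 1 = 3 * t)
    (hδ : δ = 1 ∨ δ = -1) (hε : ε = 1 ∨ ε = -1)
    (hdeg : ε * (ϑ : ℤ) = 1 + ((p : ℤ) + 1) + δ * (d : ℤ))
    (hcoef : ε * (aθ : ℤ) = 1 + ((f : ℤ) + 1) + δ * (c : ℤ))
    (hdX : (d : ℤ) ≡ δ [ZMOD p]) (hd2 : 2 ≤ d)
    (hsum : 1 + f * p + (f + 1) * (p + 1) + c * d + t * aθ * ϑ ≤ 3 * p) : ϑ = 3 := by
  have hf : f = 0 := by
    by_contra hf
    obtain ⟨g, rfl⟩ : ∃ g, f = g + 1 := ⟨f - 1, by omega⟩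
    have h1 : (g + 1) * p + (g + 1 + 1) * (p + 1) = 3 * p + 2 + g * (2 * p + 1) := by ring
    omega
  subst hf
  have htpos : 1 ≤ t := by omega
  rcases hδ with rfl | rfl
  · -- δ = 1
    exfalso
    have hd' : p + 1 ≤ d := by
      have h1 : (p : ℤ) ∣ (d : ℤ) - 1 := (Int.modEq_iff_dvd.1 hdX.symm)
      obtain ⟨k, hk⟩ := h1
      have hk1 : 1 ≤ k := by
        by_contra hk0
        have : k ≤ 0 := by omega
        have h2 : (p : ℤ) * k ≤ 0 := mul_nonpos_of_nonneg_of_nonpos (by positivity) this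
        have h3 : (2 : ℤ) ≤ d := by exact_mod_cast hd2
        omega
      have h2 : (p : ℤ) * 1 ≤ (p : ℤ) * k := mul_le_mul_of_nonneg_left hk1 (by positivity)
      omega
    have hε1 : ε = 1 := by
      rcases hε with h | h
      · exact h
      · subst h
        have : (0 : ℤ) ≤ (ϑ : ℤ) := by positivity
        have h3 : (0 : ℤ) ≤ (d : ℤ) := by positivity
        have h4 : (0 : ℤ) ≤ (p : ℤ) := by positivity
        omega
    subst hε1
    have h1 : ϑ = p + 2 + d := by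
      have : (ϑ : ℤ) = ((p + 2 + d : ℕ) : ℤ) := by push_cast; omega
      exact_mod_cast this
    have h2 : aθ = 2 + c := by
      have : (aθ : ℤ) = ((2 + c : ℕ) : ℤ) := by push_cast; omega
      exact_mod_cast this
    subst h1 h2
    have h3 : t * (2 + c) * (p + 2 + d) ≥ t * 2 * (p + 2 + d) := by
      apply Nat.mul_le_mul_right
      apply Nat.mul_le_mul_left
      omega
    have h4 : t * 2 * (p + 2 + d) ≥ 1 * 2 * (p + 2 + (p + 1)) := by
      apply Nat.mul_le_mul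
      · apply Nat.mul_le_mul_right
        exact htpos
      · omega
    have h5 : 3 * t = p - 1 := ht.symm
    have h6 : t * 2 * (p + 2 + d) ≥ t * 2 * (2 * p + 3) := by
      apply Nat.mul_le_mul_left
      omega
    have h7 : t * 2 * (2 * p + 3) ≥ (t * 2) * 9 := by
      apply Nat.mul_le_mul_left
      omega
    have h8 : 0 * (1 + 1) + 0 = 0 := by norm_num
    nlinarith
  · -- δ = -1
    have hd' : p ≤ d + 1 := by
      have h1 : (p : ℤ) ∣ (d : ℤ) + 1 := by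
        have := Int.modEq_iff_dvd.1 hdX.symm
        simpa using this
      obtain ⟨k, hk⟩ := h1
      have hk1 : 1 ≤ k := by
        by_contra hk0
        have : k ≤ 0 := by omega
        have h2 : (p : ℤ) * k ≤ 0 := mul_nonpos_of_nonneg_of_nonpos (by positivity) this
        have h3 : (2 : ℤ) ≤ d := by exact_mod_cast hd2
        omega
      have h2 : (p : ℤ) * 1 ≤ (p : ℤ) * k := mul_le_mul_of_nonneg_left hk1 (by positivity)
      omega
    by_cases hdp : d + 1 = p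
    · subst hdp
      rcases hε with rfl | rfl
      · have : (ϑ : ℤ) = 3 := by push_cast at hdeg; omega
        exact_mod_cast this
      · exfalso
        have : (0 : ℤ) ≤ (ϑ : ℤ) := by positivity
        push_cast at hdeg
        omega
    · exfalso
      have hd2p : 2 * p ≤ d + 1 := by
        have h1 : (p : ℤ) ∣ (d : ℤ) + 1 := by
          have := Int.modEq_iff_dvd.1 hdX.symm
          simpa using this
        obtain ⟨k, hk⟩ := h1
        have hk2 : 2 ≤ k := by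
          by_contra hk0
          have : k ≤ 1 := by omega
          have h2 : (p : ℤ) * k ≤ (p : ℤ) * 1 := mul_le_mul_of_nonneg_left this (by positivity)
          have h3 : ((d + 1 : ℕ) : ℤ) ≠ (p : ℤ) := by exact_mod_cast hdp
          have h4 : (p : ℤ) ≤ (d : ℤ) + 1 := by exact_mod_cast hd'
          push_cast at h3
          omega
        have h2 : (p : ℤ) * 2 ≤ (p : ℤ) * k := mul_le_mul_of_nonneg_left hk2 (by positivity)
        have h3 : ((2 * p : ℕ) : ℤ) ≤ ((d + 1 : ℕ) : ℤ) := by push_cast; omega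
        exact_mod_cast h3
      have hε1 : ε = -1 := by
        rcases hε with h | h
        · subst h
          exfalso
          have : (0 : ℤ) ≤ (ϑ : ℤ) := by positivity
          have h4 : ((2 * p : ℕ) : ℤ) ≤ ((d + 1 : ℕ) : ℤ) := by exact_mod_cast hd2p
          have h5 : (7 : ℤ) ≤ p := by exact_mod_cast hp7
          push_cast at h4
          omega
        · exact h
      subst hε1
      have hc : c = 2 + aθ := by
        have : (c : ℤ) = ((2 + aθ : ℕ) : ℤ) := by push_cast; omega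
        exact_mod_cast this
      subst hc
      have h3 : (2 + aθ) * d ≥ 2 * d := Nat.mul_le_mul_right _ (by omega)
      have h4 : 0 * p = 0 := by ring
      simp only [zero_mul, add_zero, zero_add, one_mul] at hsum
      omega

end Cfsg.Agent.Lib.ThreePQ
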