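import Mathlib
import Cfsg.Agent.Lib.ThreePQ.LU
import Cfsg.Agent.Lib.ThreePQ.Numeric
import Cfsg.Agent.Lib.Char.BrauerSCNum

/-!
# Set-up for simple groups of order `3 p^a 2^b`
-/

set_option autoImplicit false
set_option linter.unusedSectionVars false
set_option linter.style.haveILetI false

namespace Cfsg.Agent.Lib.ThreePQ

open Cfsg Subgroup Module Finset
open Cfsg.Agent.Lib.Char.Values Cfsg.Agent.Lib.DefectOne

universe u

variable {G : Type u} [Group G] [Finite G]

/-- Averaging with constant values. -/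
theorem avg_dvd {χ : G → ℂ} (hχ : IsCharacter G χ) {r : ℕ} [hr : Fact r.Prime] {x c : G}
    (hx : orderOf x = r) (hc : c * x = x * c) {z κ : ℤ} (h0 : χ c = z)
    (hκ : ∀ i : ZMod r, i ≠ 0 → χ (c * XX x i) = κ) : (r : ℤ) ∣ z + ((r : ℤ) - 1) * κ := by
  classical
  haveI : NeZero r := ⟨hr.out.ne_zero⟩
  letI : Fintype (ZMod r) := ZMod.fintype r
  have h1 := avg_isIntegral hχ hx hc
  have h2 : ∑ i : ZMod r, χ (c * XX x i) = ((z + ((r : ℤ) - 1) * κ : ℤ) : ℂ) := by
    rw [← Finset.add_sum_erase _ _ (Finset.mem_univ (0 : ZMod r))]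
    rw [Finset.sum_congr rfl (fun i hi => hκ i (Finset.ne_of_mem_erase hi))]
    rw [XX_zero, mul_one, h0, Finset.sum_const, Finset.card_erase_of_mem (Finset.mem_univ _), Finset.card_univ,
      ZMod.card]
    have hr1 : 1 ≤ r := hr.out.one_le
    rw [nsmul_eq_mul, Nat.cast_sub hr1]
    push_cast
    ring
  rw [h2] at h1
  exact dvd_of_isIntegral_inv_mul hr.out.ne_zero h1

/-- Multiplying an element of order `3` by a commuting involution keeps the order divisible by `3`. -/
lemma three_dvd_orderOf_mul {y t : G} (hy : orderOf y = 3) (ht : t * t = 1) (hc : t * y = y * t) :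
    3 ∣ orderOf (t * y) := by
  have h1 : (t * y) ^ 4 = y := by
    have hcomm : Commute t y := hc
    rw [hcomm.mul_pow]
    have h2 : t ^ 4 = 1 := by
      have h21 : t ^ 2 = 1 := by rw [pow_two, ht]
      calc t ^ 4 = (t ^ 2) ^ 2 := by rw [← pow_mul]
        _ = 1 := by rw [h21, one_pow]
    have h3 : y ^ 4 = y := by
      have h5 : y ^ 3 = 1 := by
        rw [← hy]
        exact pow_orderOf_eq_one y
      calc y ^ 4 = y ^ 3 * y := by group
        _ = y := by rw [h5, one_mul]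
    rw [h2, h3, one_mul]
  have h2 := orderOf_pow_dvd (x := t * y) 4
  rwa [h1, hy] at h2

lemma orderOf_XX_three {y : G} (hy : orderOf y = 3) (i : ZMod 3) (hi : i ≠ 0) : orderOf (XX y i) = 3 := by
  haveI : Fact (Nat.Prime 3) := ⟨Nat.prime_three⟩
  apply orderOf_eq_prime
  · exact XX_pow_p hy i
  · intro h
    apply hi
    have : XX y i = XX y (0 : ZMod 3) := by rw [h, XX_zero]
    exact XX_inj hy this

/-- The congruence modulo `3` for a character equal to `1` on `3`-singular elements. -/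
theorem three_dvd_add_two {χ : G → ℂ} (hχ : IsCharacter G χ) (hs : ∀ g : G, 3 ∣ orderOf g → χ g = 1)
    {y t : G} (hy : orderOf y = 3) (ht : t * t = 1) (hc : t * y = y * t) {z : ℤ} (hz : χ t = z) :
    (3 : ℤ) ∣ z + 2 := by
  haveI : Fact (Nat.Prime 3) := ⟨Nat.prime_three⟩
  have h1 := avg_dvd (r := 3) (κ := 1) hχ hy hc hz (fun i hi => by
    rw [Int.cast_one]
    apply hs
    have h2 : Commute t (XX y i) := by
      have h3 : Commute t y := hc
      exact h3.pow_right _
    exact three_dvd_orderOf_mul (orderOf_XX_three hy i hi) ht h2.eq)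
  have h2 : z + (((3 : ℕ) : ℤ) - 1) * 1 = z + 2 := by
    push_cast
    ring
  rw [h2] at h1
  exact_mod_cast h1

/-- A non-identity element has a power of prime order. -/
lemma exists_prime_order_power {d : G} (hd : d ≠ 1) : ∃ (ℓ k : ℕ), ℓ.Prime ∧ orderOf (d ^ k) = ℓ := by
  have h1 : orderOf d ≠ 1 := by
    rwa [Ne, orderOf_eq_one_iff]
  have h0 : orderOf d ≠ 0 := (orderOf_pos d).ne'
  refine ⟨(orderOf d).minFac, orderOf d / (orderOf d).minFac, Nat.minFac_prime h1, ?_⟩
  exact orderOf_pow_orderOf_div h0 (Nat.minFac_dvd _)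

/-- The index of a subgroup containing a Sylow `p`-subgroup is prime to `p`. -/
lemma coprime_index_of_sylow_le {p : ℕ} [hp : Fact p.Prime] (P : Sylow p G) {K : Subgroup G}
    (h : (P : Subgroup G) ≤ K) : Nat.Coprime p K.index := by
  apply (Nat.Prime.coprime_iff_not_dvd hp.out).2
  intro h1
  exact P.not_dvd_index (h1.trans (Subgroup.index_dvd_of_le h))

/-- The index form of the Sylow count when the normalizer has order `p 2^c`. -/
lemma index_of_card_normalizer {p b c : ℕ} {N : Subgroup G} (hp : 0 < p) (hG : Nat.card G = 3 * p * 2 ^ b)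
    (hN : Nat.card N = p * 2 ^ c) : ∃ k, N.index = 3 * 2 ^ k := by
  have h1 := Subgroup.card_mul_index N
  rw [hN, hG] at h1
  have hcb : c ≤ b := by
    by_contra hlt
    push Not at hlt
    obtain ⟨d, rfl⟩ : ∃ d, c = b + 1 + d := ⟨c - (b + 1), by omega⟩
    have h2 : p * 2 ^ b * (2 * 2 ^ d * N.index) = p * 2 ^ b * 3 := by
      calc p * 2 ^ b * (2 * 2 ^ d * N.index) = p * 2 ^ (b + 1 + d) * N.index := by ring
        _ = 3 * p * 2 ^ b := h1
        _ = p * 2 ^ b * 3 := by ring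
    have h3 := Nat.eq_of_mul_eq_mul_left (by positivity) h2
    have h4 : 2 ∣ 3 := ⟨2 ^ d * N.index, by rw [← h3]; ring⟩
    omega
  obtain ⟨k, rfl⟩ : ∃ k, b = c + k := ⟨b - c, by omega⟩
  refine ⟨k, ?_⟩
  have h2 : p * 2 ^ c * N.index = p * 2 ^ c * (3 * 2 ^ k) := by
    rw [h1, pow_add]
    ring
  exact Nat.eq_of_mul_eq_mul_left (by positivity) h2

/-- Sylow's congruence in the form used in the numerics. -/
lemma dvd_of_index {p k : ℕ} [hp : Fact p.Prime] (P : Sylow p G)
    (h : (normalizer ((P : Subgroup G) : Set G)).index = 3 * 2 ^ k) : p ∣ 3 * 2 ^ k - 1 := by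
  have h1 := card_sylow_modEq_one p G
  have h2 := Sylow.card_eq_index_normalizer P
  rw [h2] at h1
  have h3 : (normalizer ((P : Subgroup G) : Set G)).index ≡ 1 [MOD p] := h1
  rw [h] at h3
  exact (Nat.modEq_iff_dvd' (by have := Nat.one_le_two_pow (n := k); omega)).1 h3.symm

section Simple

variable [IsSimpleGroup G]

open Cfsg.Agent.Lib.Blocks.PrimeDegs

/-- No element of order `3` commutes with an element of order `p`. -/
theorem no_three (hna : ∃ a b : G, a * b ≠ b * a) {p b : ℕ} (hp : p.Prime) (hp3 : p ≠ 3)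
    (hG : Nat.card G = 3 * p * 2 ^ b) {u y : G} (hu : orderOf u = p) (hy : orderOf y = 3) (hc : u * y = y * u) :
    False := by
  have hu1 : u ≠ 1 := by
    intro h
    rw [h, orderOf_one] at hu
    exact hp.one_lt.ne hu
  let C : Subgroup G := centralizer ({u} : Set G)
  have huC : u ∈ C := by
    rw [Subgroup.mem_centralizer_singleton_iff]
  have hyC : y ∈ C := by
    rw [Subgroup.mem_centralizer_singleton_iff]
    exact hc.symm
  have h1 : p ∣ Nat.card C := by
    rw [← hu]
    exact Subgroup.orderOf_dvd_natCard C huC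
  have h2 : 3 ∣ Nat.card C := by
    rw [← hy]
    exact Subgroup.orderOf_dvd_natCard C hyC
  have hco : Nat.Coprime 3 p := (Nat.coprime_primes Nat.prime_three hp).2 (Ne.symm hp3)
  obtain ⟨d, hd⟩ := hco.mul_dvd_of_dvd_of_dvd h2 h1
  have h3 := Subgroup.card_mul_index C
  rw [hd, hG] at h3
  have h4 : d * C.index = 2 ^ b := by
    have hpos : 0 < 3 * p := by have := hp.pos; omega
    apply Nat.eq_of_mul_eq_mul_left hpos
    rw [← h3]
    ring
  have h5 : C.index ∣ 2 ^ b := ⟨d, by rw [← h4]; ring⟩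
  obtain ⟨k, -, hk⟩ := (Nat.dvd_prime_pow Nat.prime_two).1 h5
  have hcen := Cfsg.Agent.Lib.Char.Burnside2.mem_center_of_prime_power_class 2 k Nat.prime_two u hu1 hk
  rw [center_eq_bot hna, Subgroup.mem_bot] at hcen
  exact hu1 hcen

/-- Vanishing of a character of degree `p` on elements whose centralizer contains a Sylow `p`-subgroup. -/
theorem vanish_of_sylow_le (hna : ∃ a b : G, a * b ≠ b * a) {p : ℕ} [hp : Fact p.Prime] (P : Sylow p G)
    (χ : IrrCharacter G) (hne : (χ : G → ℂ) ≠ fun _ => 1) (hdeg : charDegree (χ : G → ℂ) = p) {z : G}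
    (hz : z ≠ 1) (hle : (P : Subgroup G) ≤ centralizer ({z} : Set G)) : (χ : G → ℂ) z = 0 := by
  apply irr_vanish hna χ hne hz
  rw [hdeg]
  exact coprime_index_of_sylow_le P hle

/-- The Sylow `p`-subgroup has order `p` when a character of degree `p` exists and `a ≤ 2`. -/
theorem card_sylow_eq_of_degree (hna : ∃ a b : G, a * b ≠ b * a) {p a : ℕ} [hp : Fact p.Prime] (P : Sylow p G)
    (hP : Nat.card P = p ^ a) (ha1 : 1 ≤ a) (ha : a ≤ 2)
    (χ : IrrCharacter G) (hne : (χ : G → ℂ) ≠ fun _ => 1) (hdeg : charDegree (χ : G → ℂ) = p) : a = 1 := by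
  classical
  letI : Fintype (P : Subgroup G) := Fintype.ofFinite _
  have hcomm : ∀ x y : (P : Subgroup G), x * y = y * x := by
    have h1 : a = 1 ∨ a = 2 := by omega
    rcases h1 with rfl | rfl
    · intro x y
      haveI : IsCyclic (P : Subgroup G) := isCyclic_of_prime_card (p := p) (by simpa using hP)
      exact (IsCyclic.isMulCommutative (α := (P : Subgroup G))).is_comm.comm x y
    · exact (IsPGroup.isMulCommutative_of_card_eq_prime_sq (p := p) hP).is_comm.comm
  have hval : ∀ z : (P : Subgroup G), z ≠ 1 → (χ : G → ℂ) z = 0 := by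
    intro z hz
    apply vanish_of_sylow_le hna P χ hne hdeg
    · intro h
      exact hz (Subtype.ext h)
    · intro c hc
      rw [Subgroup.mem_centralizer_singleton_iff]
      have := hcomm ⟨c, hc⟩ z
      exact congrArg Subtype.val this
  obtain ⟨m, hm⟩ := exists_nat_sum_subgroup (Cfsg.Agent.Lib.Char.Basic.isCharacter_of_isIrrCharacter χ.2) (P : Subgroup G)
  rw [← Finset.add_sum_erase _ _ (Finset.mem_univ (1 : (P : Subgroup G)))] at hm
  rw [Finset.sum_eq_zero (fun z hz => hval z (Finset.ne_of_mem_erase hz)), add_zero] at hm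
  have h1 := IsCharacter.charDegree_cast (Cfsg.Agent.Lib.Char.Basic.isCharacter_of_isIrrCharacter χ.2)
  rw [hdeg] at h1
  have h2 : ((χ : G → ℂ) ((1 : (P : Subgroup G)) : G)) = (χ : G → ℂ) 1 := rfl
  rw [h2, ← h1] at hm
  have h3 : p = Nat.card (P : Subgroup G) * m := by exact_mod_cast hm
  rw [show Nat.card (P : Subgroup G) = p ^ a from hP] at h3
  have h4 : p ^ a ∣ p ^ 1 := ⟨m, by rw [pow_one]; exact h3⟩
  have h5 := (Nat.pow_dvd_pow_iff_le_right hp.out.one_lt).1 h4
  omega

/-- The prime divisors of the group order. -/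
lemma prime_dvd_card {p a b ℓ : ℕ} (hp : p.Prime) (hℓ : ℓ.Prime) (hG : Nat.card G = 3 * p ^ a * 2 ^ b)
    (hd : ℓ ∣ Nat.card G) : ℓ = 3 ∨ ℓ = p ∨ ℓ = 2 := by
  rw [hG] at hd
  rcases hℓ.dvd_mul.1 hd with h1 | h1
  · rcases hℓ.dvd_mul.1 h1 with h2 | h2
    · left
      exact (Nat.prime_dvd_prime_iff_eq hℓ Nat.prime_three).1 h2
    · right; left
      exact (Nat.prime_dvd_prime_iff_eq hℓ hp).1 (hℓ.dvd_of_dvd_pow h2)
  · right; right
    exact (Nat.prime_dvd_prime_iff_eq hℓ Nat.prime_two).1 (hℓ.dvd_of_dvd_pow h1)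

/-- The degrees of the two characters. -/
theorem degrees (hna : ∃ x y : G, x * y ≠ y * x) {p a b : ℕ} (hp : p.Prime) (hp5 : 5 ≤ p) (ha1 : 1 ≤ a)
    (ha : a ≤ 2) (hG : Nat.card G = 3 * p ^ a * 2 ^ b) (L U : IrrCharacter G)
    (hLne : (L : G → ℂ) ≠ fun _ => 1) (hUne : (U : G → ℂ) ≠ fun _ => 1)
    (hreg : ∀ g, ¬ 3 ∣ orderOf g → (U : G → ℂ) g = (L : G → ℂ) g + 1)
    (hsing : ∀ g, 3 ∣ orderOf g → (L : G → ℂ) g = 1 ∧ (U : G → ℂ) g = -1) :
    (∃ i, 2 ≤ i ∧ charDegree (L : G → ℂ) = 2 ^ i ∧ charDegree (U : G → ℂ) = p ∧ p = 2 ^ i + 1) ∨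
      (∃ i, 3 ≤ i ∧ charDegree (L : G → ℂ) = p ∧ charDegree (U : G → ℂ) = 2 ^ i ∧ p + 1 = 2 ^ i) := by
  classical
  letI : Fintype G := Fintype.ofFinite G
  haveI hf3 : Fact (Nat.Prime 3) := ⟨Nat.prime_three⟩
  have hLχ := Cfsg.Agent.Lib.Char.Basic.isCharacter_of_isIrrCharacter L.2
  have hUχ := Cfsg.Agent.Lib.Char.Basic.isCharacter_of_isIrrCharacter U.2
  have hcL := IsCharacter.charDegree_cast hLχ
  have hcU := IsCharacter.charDegree_cast hUχ
  set n := charDegree (L : G → ℂ) with hn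
  have hn2 : 2 ≤ n := two_le_degree hna L hLne
  have hm : charDegree (U : G → ℂ) = n + 1 := by
    have h1 := hreg 1 (by simp)
    rw [← hcL, ← hcU] at h1
    exact_mod_cast h1
  rw [hm] at hcU
  have h3G : 3 ∣ Nat.card G := by
    rw [hG]
    exact Dvd.dvd.mul_right (Dvd.intro _ rfl) _
  obtain ⟨y, hy⟩ := exists_prime_orderOf_dvd_card' (G := G) 3 h3G
  have hmod : (3 : ℤ) ∣ (n : ℤ) + 2 := by
    apply three_dvd_add_two hLχ (fun g hg => (hsing g hg).1) hy (t := 1) (one_mul 1) (by simp)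
    rw [← hcL]
    push_cast
    rfl
  have hdvdn : n ∣ Nat.card G := Cfsg.Agent.Lib.Char.BrauerSCNum.degree_dvd L n hcL.symm
  have hdvdm : n + 1 ∣ Nat.card G := Cfsg.Agent.Lib.Char.BrauerSCNum.degree_dvd U (n + 1) hcU.symm
  have hp3 : p ≠ 3 := by omega
  have hp2 : p ≠ 2 := by omega
  have key : ∀ k, k ∣ Nat.card G → ¬ 3 ∣ k → ∀ ℓ : ℕ, ℓ.Prime → ℓ ∣ k → ℓ = 2 ∨ ℓ = p := by
    intro k hk h3 ℓ hℓ hd
    rcases prime_dvd_card hp hℓ hG (hd.trans hk) with h | h | h
    · subst h
      exact absurd hd h3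
    · exact Or.inr h
    · exact Or.inl h
  have hcons := consecutive_pure hp hp2 hn2 (key n hdvdn (by omega)) (key (n + 1) hdvdm (by omega))
  -- the exponent `j`
  have hj : ∀ j, p ^ j ∣ Nat.card G → j ≤ a := by
    intro j hj
    rw [hG] at hj
    have h1 : Nat.Coprime (p ^ j) (2 ^ b) :=
      Nat.Coprime.pow _ _ ((Nat.coprime_primes hp Nat.prime_two).2 hp2)
    have h2 : Nat.Coprime (p ^ j) 3 :=
      Nat.Coprime.pow_left _ ((Nat.coprime_primes hp Nat.prime_three).2 hp3)
    have h3 := h1.dvd_of_dvd_mul_right hj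
    have h4 := h2.dvd_of_dvd_mul_left h3
    exact (Nat.pow_dvd_pow_iff_le_right hp.one_lt).1 h4
  rcases hcons with ⟨i, j, hi, hj1, hni, hnj⟩ | ⟨i, j, hi, hj1, hni, hnj⟩
  · left
    have hj2 := hj j (hnj ▸ hdvdm)
    have hj' : j = 1 := by
      by_contra hne
      have : j = 2 := by omega
      subst this
      rw [hni] at hnj
      exact sq_sub_one_ne_pow hp hp5 hnj
    subst hj'
    rw [pow_one] at hnj
    refine ⟨i, ?_, hni, by rw [hm, hnj], by rw [← hnj, hni]⟩
    by_contra hlt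
    have : i = 1 := by omega
    subst this
    omega
  · right
    have hj2 := hj j (hni ▸ hdvdn)
    have hj' : j = 1 := by
      by_contra hne
      have : j = 2 := by omega
      subst this
      rw [hni] at hnj
      exact sq_add_one_ne_pow hp5 (hp.odd_of_ne_two hp2) hnj
    subst hj'
    rw [pow_one] at hni
    rw [hni] at hnj
    refine ⟨i, ?_, hni, by rw [hm, hni, hnj], hnj⟩
    by_contra hlt
    have : i = 1 ∨ i = 2 := by omega
    rcases this with rfl | rfl <;> omega

end Simple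

end Cfsg.Agent.Lib.ThreePQ
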